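import Cfsg.Agent.H808.R2.Adj
import Cfsg.Agent.H441.RG.Weak

/-!
# S3509, box R2 (c): the weak data of the adjusted form (helper808)
-/

set_option autoImplicit false
set_option linter.unusedSectionVars false

namespace Cfsg.Agent.H808.R2

open CoxeterSystem Cfsg Cfsg.Lie Cfsg.Lie.ChevalleyDatum
open Cfsg.Agent.ChevalleyStructure Cfsg.Agent.ChevalleyStructure.Elts Cfsg.Agent.ChevalleyStructure.CoxeterGeom
  Cfsg.Agent.ChevalleyStructure.CoxeterGeomTypes Cfsg.Agent.ChevalleyStructure.NPerm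
open Cfsg.Agent.Tits.Roots Cfsg.Agent.Tits.Core Cfsg.Agent.Nodes Cfsg.Agent.Nodes.Reps Cfsg.Agent.Nodes.BNOf
  Cfsg.Agent.Nodes.RGDChev Cfsg.Agent.Nodes.Bruhat Cfsg.Agent.Nodes.NormalForm Cfsg.Agent.Nodes.Coroot
open Cfsg.Agent.Nodes.SubComb
open Cfsg.Agent.KFacts.RgdField Cfsg.Agent.KFacts.RgdChevCoord
open Cfsg.Agent.BpExc Cfsg.Agent.BpExc.TorCent Cfsg.Agent.BpExc.TorChev Cfsg.Agent.BpExc.Tow
  Cfsg.Agent.BpExc.TowChev Cfsg.Agent.BpExc.Fr Cfsg.Agent.BpExc.Pair Cfsg.Agent.BpExc.LangFr Cfsg.Agent.GpExc.Field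
  Cfsg.Agent.BpExc.NInst Cfsg.Agent.BpExc.NChev
open Cfsg.Agent.H469.Exc Cfsg.Agent.H316.U6 Cfsg.Agent.H169.RG Cfsg.Agent.H441.RG

universe u v

variable {D : ChevalleyDatum} {l : ℕ} {M : CoxeterMatrix (Fin l)} {hp : IsType D l M} {r q : ℕ} [hr : Fact r.Prime]
  {K₀ : Type v} [Group K₀] {m : MData hp r q K₀} {s : ↥(D.group (KK r))}

/-- an injective map into a finite set stable under it -/
theorem stab_of_le {X : Type*} (g : X ≃ X) {S : Set X} (hf : S.Finite) (h : ∀ a ∈ S, g a ∈ S) (a : X) :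
    g a ∈ S ↔ a ∈ S := by
  refine ⟨fun h1 => ?_, h a⟩
  have h2 : g '' S ⊆ S := by
    rintro _ ⟨b, hb, rfl⟩
    exact h b hb
  have h3 : g '' S = S := Set.eq_of_subset_of_ncard_le h2 (by rw [Set.ncard_image_of_injective S g.injective]) hf
  rw [← h3] at h1
  obtain ⟨b, hb, e⟩ := h1
  rwa [← g.injective e]

/-- the weak data of the adjusted form -/
theorem AdjForm.dfr {f : TorForm m s} {S : Set (Fin l → ℤ)} (a : AdjForm f S) {t' : ↥(D.group (KK r))}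
    (ht' : t' ∈ TT D (KK r)) (hSx : Sx M.toCoxeterSystem hp.isCartan (ch hp) t' = S) :
    Wk.DFr hp M.toCoxeterSystem r m.e (MulAut.conj a.n * m.σ) a.θ t' where
  he := m.he
  frob := a.frob
  fr := a.fr
  mem := ht'
  stab := by
    rw [hSx]
    exact a.stab
  pos := by
    rw [hSx]
    exact a.pos

/-- **R2 (c)**, for the roots trivial on `t'`. -/
theorem exists_adj_of (f : TorForm m s) {S : Set (Fin l → ℤ)} (hθ : ∀ a ∈ S, f.θ a ∈ S) {t' : ↥(D.group (KK r))}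
    (ht' : t' ∈ TT D (KK r)) (hSx : Sx M.toCoxeterSystem hp.isCartan (ch hp) t' = S) :
    ∃ (z n : ↥(D.group (KK r))) (θ' : (Fin l → ℤ) ≃+ (Fin l → ℤ)), z⁻¹ * m.σ z = n ∧
      Wk.DFr hp M.toCoxeterSystem r m.e (MulAut.conj n * m.σ) θ' t' ∧
      (∃ v : M.Group, (∀ x, θ' x = f.θ (rep M.toCoxeterSystem hp.isCartan v x)) ∧
        ∀ a ∈ S, rep M.toCoxeterSystem hp.isCartan v a ∈ S) ∧
      ∀ x, m.σ x = x → f.z⁻¹ * x * f.z ∈ TT D (KK r) → z⁻¹ * x * z ∈ fixC (MulAut.conj n * m.σ) t' := by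
  have := finite_W hp M.toCoxeterSystem
  have hA := chAddL (k := KK r) hp M.toCoxeterSystem (locFin r) r
  have C := coordsL (k := KK r) hp M.toCoxeterSystem (locFin r) r
  have hS : ∀ a ∈ S, IsRoot M.toCoxeterSystem hp.isCartan a := by
    rw [← hSx]
    exact fun a ha => ha.1
  have hneg : ∀ a ∈ S, -a ∈ S := by
    rw [← hSx]
    exact fun a ha => chi_neg C ht' hA ha
  have hcl : ReflCl M.toCoxeterSystem hp.isCartan S := by
    rw [← hSx]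
    exact reflCl_Sx hA ht'
  have hfin : S.Finite := (RGD.finite_roots (cs := M.toCoxeterSystem) (h := hp.isCartan)).subset hS
  obtain ⟨a⟩ := exists_adjForm f hS hneg hcl (stab_of_le f.θ.toEquiv hfin hθ)
  refine ⟨a.z, a.n, a.θ, a.lang, a.dfr ht' hSx, ⟨a.v, a.hθ, fun b hb => (WS_mem hcl a.v_mem b).2 hb⟩, ?_⟩
  intro x hx ht
  have hαx : f.α (f.z⁻¹ * x * f.z) = f.z⁻¹ * x * f.z := (f.fix_iff x).2 hx
  have e : a.z⁻¹ * x * a.z = a.c⁻¹ * (f.z⁻¹ * x * f.z) * a.c := by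
    rw [AdjForm.z]
    group
  rw [e]
  exact mem_fixC.2 ⟨a.fix_tor hαx, a.tor_comm ht' (by rw [hSx]) (TorChev.TT_comm hp _ ht _ ht')⟩

/-- **R2 (c)**, plain data. -/
theorem exists_adj_plain {z₀ n₀ : ↥(D.group (KK r))} {θ₀ : (Fin l → ℤ) ≃+ (Fin l → ℤ)} (hz : z₀⁻¹ * m.σ z₀ = n₀)
    (frob : IsFrob r m.e (MulAut.conj n₀ * m.σ))
    (fr : Fr M.toCoxeterSystem hp.isCartan (TT D (KK r)) (XX D l (KK r)) (MulAut.conj n₀ * m.σ) θ₀)
    {S : Set (Fin l → ℤ)} (hθ : ∀ a ∈ S, θ₀ a ∈ S) {t' : ↥(D.group (KK r))}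
    (ht' : t' ∈ TT D (KK r)) (hSx : Sx M.toCoxeterSystem hp.isCartan (ch hp) t' = S) :
    ∃ (z n : ↥(D.group (KK r))) (θ' : (Fin l → ℤ) ≃+ (Fin l → ℤ)), z⁻¹ * m.σ z = n ∧
      Wk.DFr hp M.toCoxeterSystem r m.e (MulAut.conj n * m.σ) θ' t' ∧
      (∃ v : M.Group, (∀ x, θ' x = θ₀ (rep M.toCoxeterSystem hp.isCartan v x)) ∧
        ∀ a ∈ S, rep M.toCoxeterSystem hp.isCartan v a ∈ S) ∧
      ∀ x, m.σ x = x → z₀⁻¹ * x * z₀ ∈ TT D (KK r) → z⁻¹ * x * z ∈ fixC (MulAut.conj n * m.σ) t' := by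
  have := finite_W hp M.toCoxeterSystem
  have hA := chAddL (k := KK r) hp M.toCoxeterSystem (locFin r) r
  have C := coordsL (k := KK r) hp M.toCoxeterSystem (locFin r) r
  have hS : ∀ a ∈ S, IsRoot M.toCoxeterSystem hp.isCartan a := by
    rw [← hSx]
    exact fun a ha => ha.1
  have hneg : ∀ a ∈ S, -a ∈ S := by
    rw [← hSx]
    exact fun a ha => chi_neg C ht' hA ha
  have hcl : ReflCl M.toCoxeterSystem hp.isCartan S := by
    rw [← hSx]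
    exact reflCl_Sx hA ht'
  have hfin : S.Finite := (RGD.finite_roots (cs := M.toCoxeterSystem) (h := hp.isCartan)).subset hS
  have hθ' := stab_of_le θ₀.toEquiv hfin hθ
  have hTL := TL_eq (k := KK r) hp (locFin r)
  have hXL := XL_eq (k := KK r) hp (locFin r)
  have H := tow (k := KK r) hp M.toCoxeterSystem (locFin r) r
  obtain ⟨v, hv, m₁, hm₁, hrp, hpos⟩ := exists_adj H hS hneg θ₀ (fun a ha => (fr.root a).2 ha)
  rw [hXL] at hm₁
  -- the new frame automorphism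
  have Fv := Fr.conj H hrp
  rw [hTL, hXL] at Fv
  have F1 := fr.mul Fv
  have e2 : MulAut.conj n₀ * m.σ * MulAut.conj m₁ = MulAut.conj (n₀ * m.σ m₁) * m.σ := by
    ext1 y
    show n₀ * m.σ (m₁ * y * m₁⁻¹) * n₀⁻¹ = n₀ * m.σ m₁ * m.σ y * (n₀ * m.σ m₁)⁻¹
    rw [map_mul, map_mul, map_inv]; group
  rw [e2] at F1
  have hth : ∀ x, ((repAut M.toCoxeterSystem hp.isCartan v).trans θ₀) x =
      θ₀ (rep M.toCoxeterSystem hp.isCartan v x) := fun x => rfl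
  have hstab : ∀ a, ((repAut M.toCoxeterSystem hp.isCartan v).trans θ₀) a ∈ S ↔ a ∈ S := fun a => by
    rw [hth]
    exact (hθ' _).trans (WS_mem hcl hv a)
  -- Lang in the group of `S`
  have hα : (MulAut.conj n₀ * m.σ) m₁ ∈ RGD.Sup (XX D l (KK r)) S := (fr.mem_Sup hS hθ' m₁).2 hm₁
  obtain ⟨c, hc, ec⟩ := lang_fr hp M.toCoxeterSystem m.he frob fr hS hθ hα
  have ec' : n₀ * m.σ m₁ * n₀⁻¹ = c⁻¹ * (n₀ * m.σ c * n₀⁻¹) := ec
  have hlc : c⁻¹ * n₀ * m.σ c = n₀ * m.σ m₁ := by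
    have h1 : c⁻¹ * n₀ * m.σ c = c⁻¹ * (n₀ * m.σ c * n₀⁻¹) * n₀ := by group
    rw [h1, ← ec']; group
  have hl : (z₀ * c)⁻¹ * m.σ (z₀ * c) = n₀ * m.σ m₁ := by
    rw [← hlc, ← hz, map_mul]; group
  have hct : c * t' = t' * c := by
    have h1 := MM_le_centralizer C ht' (RGD.Sup_le (fun z hz => RGD.le_Sup (by rw [hSx]; exact hz)) hc)
    rwa [Subgroup.mem_centralizer_singleton_iff] at h1
  refine ⟨z₀ * c, n₀ * m.σ m₁, _, hl, ⟨m.he, m.frob.conj_mul _, F1, ht', by rw [hSx]; exact hstab,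
    by rw [hSx]; exact hpos⟩, ⟨v, fun x => rfl, fun b hb => (WS_mem hcl hv b).2 hb⟩, ?_⟩
  intro x hx ht
  set τ := z₀⁻¹ * x * z₀ with hτ
  have hατ : n₀ * m.σ τ * n₀⁻¹ = τ := by
    rw [hτ, ← hz, map_mul, map_mul, map_inv, hx]
    group
  have e : (z₀ * c)⁻¹ * x * (z₀ * c) = c⁻¹ * τ * c := by
    rw [hτ]
    group
  rw [e]
  refine mem_fixC.2 ⟨?_, ?_⟩
  · rw [MulAut.mul_apply, MulAut.conj_apply, ← hlc, map_mul m.σ (c⁻¹ * τ), map_mul m.σ c⁻¹, map_inv]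
    calc c⁻¹ * n₀ * m.σ c * ((m.σ c)⁻¹ * m.σ τ * m.σ c) * (c⁻¹ * n₀ * m.σ c)⁻¹
        = c⁻¹ * (n₀ * m.σ τ * n₀⁻¹) * c := by group
      _ = _ := by rw [hατ]
  · have hτt : τ * t' = t' * τ := TorChev.TT_comm hp _ ht _ ht'
    have h2 : c⁻¹ * t' = t' * c⁻¹ := by
      calc c⁻¹ * t' = c⁻¹ * (t' * c) * c⁻¹ := by group
        _ = c⁻¹ * (c * t') * c⁻¹ := by rw [hct]
        _ = t' * c⁻¹ := by group
    calc (c⁻¹ * τ * c) * t' = c⁻¹ * τ * (c * t') := by group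
      _ = c⁻¹ * (τ * t') * c := by rw [hct]; group
      _ = (c⁻¹ * t') * τ * c := by rw [hτt]; group
      _ = _ := by rw [h2]; group

end Cfsg.Agent.H808.R2
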